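import Mathlib
import Cfsg.Prelude.Def_Transfer

set_option autoImplicit false

namespace Cfsg.Agent.Lib.N2R

/-- the normal `2`-rank of `G` is exactly `r` (in the shape used by S2249 / S2250) -/
def N2R (G : Type*) [Group G] (r : ℕ) : Prop :=
  (∃ E : Subgroup G, E.Normal ∧ Cfsg.IsElementaryAbelian 2 E ∧ 2 ^ r ≤ Nat.card E) ∧
    ∀ E : Subgroup G, E.Normal → Cfsg.IsElementaryAbelian 2 E → Nat.card E ≤ 2 ^ r

/-- `D` has a normal subgroup `Z₀` of order `2` containing every normal elementary abelian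
`2`-subgroup, and `D` does not have exponent `2`. -/
def Good (D : Type*) [Group D] : Prop :=
  ∃ Z₀ : Subgroup D, Nat.card Z₀ = 2 ∧ Z₀.Normal ∧
    (∀ A : Subgroup D, A.Normal → Cfsg.IsElementaryAbelian 2 A → A ≤ Z₀) ∧ ∃ x₀ : D, x₀ ^ 2 ≠ 1

end Cfsg.Agent.Lib.N2R
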