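import Mathlib
import Cfsg.Agent.Lib.Helper89.N2R.Defs

set_option autoImplicit false

namespace Cfsg.Agent.Lib.N2R
open Function Matrix

theorem elAb_iff {G : Type*} [Group G] (p : ℕ) (A : Subgroup G) :
    Cfsg.IsElementaryAbelian p A ↔ (∀ a ∈ A, ∀ b ∈ A, a * b = b * a) ∧ ∀ a ∈ A, a ^ p = 1 := by
  constructor
  · rintro ⟨h1, h2⟩
    refine ⟨fun a ha b hb => ?_, h2⟩
    have := h1.is_comm.comm ⟨a, ha⟩ ⟨b, hb⟩
    exact congrArg Subtype.val this
  · rintro ⟨h1, h2⟩
    exact ⟨⟨⟨fun a b => Subtype.ext (h1 a a.2 b b.2)⟩⟩, h2⟩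

theorem elAb_map {G H : Type*} [Group G] [Group H] (p : ℕ) (f : G →* H) {A : Subgroup G}
    (h : Cfsg.IsElementaryAbelian p A) : Cfsg.IsElementaryAbelian p (A.map f) := by
  rw [elAb_iff] at h ⊢
  constructor
  · rintro _ ⟨a, ha, rfl⟩ _ ⟨b, hb, rfl⟩
    rw [← map_mul, ← map_mul, h.1 a ha b hb]
  · rintro _ ⟨a, ha, rfl⟩
    rw [← map_pow, h.2 a ha, map_one]

theorem elAb_comap {G H : Type*} [Group G] [Group H] (p : ℕ) (f : G →* H) (hf : Injective f)
    {A : Subgroup H} (h : Cfsg.IsElementaryAbelian p A) :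
    Cfsg.IsElementaryAbelian p (A.comap f) := by
  rw [elAb_iff] at h ⊢
  constructor
  · intro a ha b hb
    apply hf
    rw [map_mul, map_mul]
    exact h.1 _ ha _ hb
  · intro a ha
    apply hf
    rw [map_pow, map_one]
    exact h.2 _ ha

/-- E1 -/
theorem N2R.of_equiv {G H : Type*} [Group G] [Group H] (e : G ≃* H) {r : ℕ} (h : N2R G r) :
    N2R H r := by
  obtain ⟨⟨E, hE, hel, hc⟩, hup⟩ := h
  constructor
  · refine ⟨E.map e.toMonoidHom, hE.map _ e.surjective, elAb_map 2 _ hel, ?_⟩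
    rw [Subgroup.card_map_of_injective e.injective]
    exact hc
  · intro E' hE' hel'
    have h1 := hup (E'.map e.symm.toMonoidHom) (hE'.map _ e.symm.surjective) (elAb_map 2 _ hel')
    rwa [Subgroup.card_map_of_injective e.symm.injective] at h1

/-- E2 -/
theorem Good.of_equiv {G H : Type*} [Group G] [Group H] (e : G ≃* H) (h : Good G) : Good H := by
  obtain ⟨Z₀, hc, hn, hA, x₀, hx₀⟩ := h
  refine ⟨Z₀.map e.toMonoidHom, ?_, hn.map _ e.surjective, ?_, e x₀, ?_⟩
  · rw [Subgroup.card_map_of_injective e.injective]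
    exact hc
  · intro A hAn hAe
    have h1 := hA (A.map e.symm.toMonoidHom) (hAn.map _ e.symm.surjective) (elAb_map 2 _ hAe)
    intro a ha
    exact ⟨e.symm a, h1 ⟨a, ha, rfl⟩, by simp⟩
  · intro h
    apply hx₀
    apply e.injective
    rw [map_pow, h, map_one]

/-- P1 -/
theorem N2R_prod {G C : Type*} [Group G] [Group C] (hC : Nat.card C = 2) {r : ℕ} (h : N2R G r) :
    N2R (G × C) (r + 1) := by
  obtain ⟨⟨E, hE, hel, hc⟩, hup⟩ := h
  have hfinC : Finite C := Nat.finite_of_card_ne_zero (by rw [hC]; norm_num)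
  have hCsq : ∀ c : C, c ^ 2 = 1 := by
    intro c
    rw [← hC]
    exact pow_card_eq_one'
  have hCcomm : ∀ a b : C, a * b = b * a := by
    have : Fact (Nat.Prime 2) := ⟨Nat.prime_two⟩
    have hcyc : IsCyclic C := isCyclic_of_prime_card hC
    intro a b
    exact (IsCyclic.commGroup (α := C)).mul_comm a b
  constructor
  · refine ⟨E.prod ⊤, ?_, ?_, ?_⟩
    · exact Subgroup.prod_normal E ⊤
    · rw [elAb_iff] at hel ⊢
      constructor
      · rintro ⟨a1, a2⟩ ⟨ha, -⟩ ⟨b1, b2⟩ ⟨hb, -⟩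
        exact Prod.ext (hel.1 a1 ha b1 hb) (hCcomm a2 b2)
      · rintro ⟨a1, a2⟩ ⟨ha, -⟩
        exact Prod.ext (hel.2 a1 ha) (hCsq a2)
    · rw [Nat.card_congr (Subgroup.prodEquiv E ⊤).toEquiv, Nat.card_prod, Subgroup.card_top, hC,
        pow_succ]
      exact Nat.mul_le_mul_right 2 hc
  · intro E' hE' hel'
    have h1 := hup (E'.map (MonoidHom.fst G C)) (hE'.map _ (fun g => ⟨(g, 1), rfl⟩))
      (elAb_map 2 _ hel')
    by_cases hfinE : Finite E'
    swap
    · rw [not_finite_iff_infinite] at hfinE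
      rw [Nat.card_eq_zero_of_infinite]
      exact Nat.zero_le _
    have hfin1 : Finite (E'.map (MonoidHom.fst G C)) := by
      have hs : Surjective (fun x : E' => (⟨x.1.1, ⟨x.1, x.2, rfl⟩⟩ :
          E'.map (MonoidHom.fst G C))) := by
        rintro ⟨_, ⟨y, hy, rfl⟩⟩
        exact ⟨⟨y, hy⟩, rfl⟩
      exact Finite.of_surjective _ hs
    have hinj : Injective (fun x : E' => ((⟨x.1.1, ⟨x.1, x.2, rfl⟩⟩ :
        E'.map (MonoidHom.fst G C)), x.1.2)) := by
      intro x y hxy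
      have h2 := congrArg (fun z => (z.1 : G)) hxy
      have h3 := congrArg (fun z => z.2) hxy
      exact Subtype.ext (Prod.ext h2 h3)
    have h4 := Nat.card_le_card_of_injective _ hinj
    rw [Nat.card_prod, hC] at h4
    calc Nat.card E' ≤ Nat.card (E'.map (MonoidHom.fst G C)) * 2 := h4
      _ ≤ 2 ^ r * 2 := Nat.mul_le_mul_right 2 h1
      _ = 2 ^ (r + 1) := (pow_succ 2 r).symm

end Cfsg.Agent.Lib.N2R
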