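import Mathlib
import Cfsg.Agent.Lib.Helper89.N2R.Abs

set_option autoImplicit false

namespace Cfsg.Agent.Lib.N2R
open Function Matrix

/-- G1 -/
theorem good_quat (k : ℕ) (hk : 1 ≤ k) : Good (QuaternionGroup (2 ^ k)) := by
  classical
  set n := 2 ^ k with hn
  have hn0 : 0 < n := by positivity
  have : NeZero n := ⟨hn0.ne'⟩
  have : NeZero (2 * n) := ⟨by omega⟩
  have hnz : ((n : ℕ) : ZMod (2 * n)) ≠ 0 := by
    intro h
    rw [ZMod.natCast_eq_zero_iff] at h
    have := Nat.le_of_dvd hn0 h
    omega
  have hnn : ((n : ℕ) : ZMod (2 * n)) + ((n : ℕ) : ZMod (2 * n)) = 0 := by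
    have : ((2 * n : ℕ) : ZMod (2 * n)) = 0 := ZMod.natCast_self _
    rw [← this]
    push_cast
    ring
  let z : QuaternionGroup n := QuaternionGroup.a ((n : ℕ) : ZMod (2 * n))
  have hz1 : z ≠ 1 := by
    intro h
    rw [QuaternionGroup.one_def] at h
    exact hnz (QuaternionGroup.a.inj h)
  have hz2 : z ^ 2 = 1 := by
    rw [pow_two, QuaternionGroup.a_mul_a, hnn, QuaternionGroup.one_def]
  have hcls : ∀ g : QuaternionGroup n, g ^ 2 = 1 → g = 1 ∨ g = z := by
    intro g hg
    rcases g with i | i
    · rw [pow_two, QuaternionGroup.a_mul_a, QuaternionGroup.one_def] at hg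
      have h0 : i + i = 0 := QuaternionGroup.a.inj hg
      have h1 : ((2 * i.val : ℕ) : ZMod (2 * n)) = 0 := by
        push_cast
        rw [ZMod.natCast_zmod_val]
        linear_combination h0
      rw [ZMod.natCast_eq_zero_iff] at h1
      have h2 : n ∣ i.val := Nat.dvd_of_mul_dvd_mul_left (by norm_num) h1
      have h3 : i.val < 2 * n := ZMod.val_lt i
      obtain ⟨c, hc⟩ := h2
      have hc2 : c < 2 := by
        by_contra hcon
        push Not at hcon
        have : n * 2 ≤ n * c := Nat.mul_le_mul_left n hcon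
        omega
      interval_cases c
      · left
        rw [QuaternionGroup.one_def]
        congr 1
        rw [← ZMod.natCast_zmod_val i, hc]
        simp
      · right
        change QuaternionGroup.a i = QuaternionGroup.a _
        congr 1
        rw [← ZMod.natCast_zmod_val i, hc]
        simp
    · exfalso
      rw [pow_two, QuaternionGroup.xa_mul_xa, QuaternionGroup.one_def] at hg
      have h0 := QuaternionGroup.a.inj hg
      apply hnz
      linear_combination h0
  have hmem : ∀ g : QuaternionGroup n, g ^ 2 = 1 → g ∈ Subgroup.zpowers z := by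
    intro g hg
    rcases hcls g hg with h | h
    · rw [h]; exact Subgroup.one_mem _
    · rw [h]; exact Subgroup.mem_zpowers z
  have hmem' : ∀ g ∈ Subgroup.zpowers z, g ^ 2 = 1 := by
    rintro _ ⟨m, rfl⟩
    change (z ^ m) ^ 2 = 1
    rw [← zpow_natCast, ← _root_.zpow_mul, mul_comm, _root_.zpow_mul, zpow_natCast, hz2, _root_.one_zpow]
  refine ⟨Subgroup.zpowers z, ?_, ?_, ?_, QuaternionGroup.xa 0, ?_⟩
  · rw [Nat.card_zpowers]
    exact orderOf_eq_prime hz2 hz1
  · constructor
    intro a ha g
    apply hmem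
    rw [conj_pow, hmem' a ha, mul_one, mul_inv_cancel]
  · intro A _ hAe a ha
    exact hmem a (((elAb_iff 2 A).mp hAe).2 a ha)
  · intro h
    rcases hcls _ h with h | h
    · rw [QuaternionGroup.one_def] at h
      cases h
    · have h' : QuaternionGroup.xa (0 : ZMod (2 * n)) = QuaternionGroup.a ((n : ℕ) : ZMod (2 * n)) := h
      cases h'

end Cfsg.Agent.Lib.N2R
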