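import Mathlib
import Cfsg.Agent.Lib.Helper89.N2R.Abs

set_option autoImplicit false

namespace Cfsg.Agent.Lib.N2R
open Function Matrix

/-- G2 -/
theorem good_units {F : Type*} [Field F] [Fintype F] (hq : Fintype.card F % 4 = 1)
    (C : Sylow 2 Fˣ) : Good (C : Subgroup Fˣ) := by
  classical
  have h2 : (2 : F) ≠ 0 := by
    intro h
    have h1 : ringChar F ∣ 2 := (ringChar.spec F 2).mp (by exact_mod_cast h)
    have h3 : ringChar F ∣ Fintype.card F :=
      (ringChar.spec F _).mp (FiniteField.cast_card_eq_zero F)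
    rcases (Nat.dvd_prime Nat.prime_two).mp h1 with h4 | h4
    · exact CharP.ringChar_ne_one h4
    · rw [h4] at h3
      omega
  have hneg : (-1 : Fˣ) ≠ 1 := by
    intro h
    have h1 : (-1 : F) = 1 := by
      have := congrArg Units.val h
      simpa using this
    apply h2
    linear_combination -h1
  have hsq : ∀ x : Fˣ, x ^ 2 = 1 → x = 1 ∨ x = -1 := by
    intro x hx
    have h1 : (x : F) ^ 2 = 1 := by
      have := congrArg Units.val hx
      simpa using this
    have h3 : ((x : F) - 1) * ((x : F) + 1) = 0 := by linear_combination h1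
    rcases mul_eq_zero.mp h3 with h | h
    · left
      apply Units.ext
      simpa using sub_eq_zero.mp h
    · right
      apply Units.ext
      simp only [Units.val_neg, Units.val_one]
      linear_combination h
  -- card of C
  have hcard : 4 ∣ Nat.card (C : Subgroup Fˣ) := by
    rw [C.card_eq_multiplicity, Nat.card_eq_fintype_card, Fintype.card_units]
    have h4 : 2 ^ 2 ∣ Fintype.card F - 1 := by
      norm_num
      omega
    have hne : Fintype.card F - 1 ≠ 0 := by
      have := Fintype.one_lt_card (α := F)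
      omega
    have := (Nat.Prime.pow_dvd_iff_le_factorization Nat.prime_two hne).mp h4
    calc 4 = 2 ^ 2 := by norm_num
      _ ∣ 2 ^ (Fintype.card F - 1).factorization 2 := pow_dvd_pow 2 this
  have hnegmem : (-1 : Fˣ) ∈ (C : Subgroup Fˣ) := by
    have h2dvd : 2 ∣ Nat.card (C : Subgroup Fˣ) := Dvd.dvd.trans (by norm_num) hcard
    obtain ⟨x, hx⟩ := exists_prime_orderOf_dvd_card' (G := (C : Subgroup Fˣ)) 2 h2dvd
    have h1 : (x : Fˣ) ^ 2 = 1 := by
      have := pow_orderOf_eq_one x
      rw [hx] at this
      exact congrArg Subtype.val this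
    rcases hsq _ h1 with h | h
    · exfalso
      have : x = 1 := Subtype.ext h
      rw [this, orderOf_one] at hx
      norm_num at hx
    · rw [← h]
      exact x.2
  let z : (C : Subgroup Fˣ) := ⟨-1, hnegmem⟩
  have hz1 : z ≠ 1 := fun h => hneg (congrArg Subtype.val h)
  have hz2 : z ^ 2 = 1 := by
    apply Subtype.ext
    simp [z]
  have hsq' : ∀ x : (C : Subgroup Fˣ), x ^ 2 = 1 → x = 1 ∨ x = z := by
    intro x hx
    rcases hsq x.1 (congrArg Subtype.val hx) with h | h
    · exact Or.inl (Subtype.ext h)
    · exact Or.inr (Subtype.ext h)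
  refine ⟨Subgroup.zpowers z, ?_, ?_, ?_, ?_⟩
  · rw [Nat.card_zpowers]
    exact orderOf_eq_prime hz2 hz1
  · constructor
    intro a ha g
    have : g * a * g⁻¹ = a := by
      rw [mul_comm g a, mul_assoc, mul_inv_cancel, mul_one]
    rw [this]
    exact ha
  · intro A _ hAe a ha
    rcases hsq' a (((elAb_iff 2 A).mp hAe).2 a ha) with h | h
    · rw [h]; exact Subgroup.one_mem _
    · rw [h]; exact Subgroup.mem_zpowers z
  · by_contra hcon
    push Not at hcon
    have hsub : ∀ x : (C : Subgroup Fˣ), x ∈ ({1, z} : Finset (C : Subgroup Fˣ)) := by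
      intro x
      rcases hsq' x (hcon x) with h | h <;> simp [h]
    have hle : Nat.card (C : Subgroup Fˣ) ≤ 2 := by
      rw [Nat.card_eq_fintype_card]
      calc Fintype.card (C : Subgroup Fˣ) = (Finset.univ : Finset (C : Subgroup Fˣ)).card := rfl
        _ ≤ ({1, z} : Finset (C : Subgroup Fˣ)).card :=
            Finset.card_le_card (fun x _ => hsub x)
        _ ≤ 2 := Finset.card_le_two
    have hpos : 0 < Nat.card (C : Subgroup Fˣ) := Nat.card_pos
    have := Nat.le_of_dvd hpos hcard
    omega

end Cfsg.Agent.Lib.N2R
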