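import Mathlib
import Cfsg.Agent.Lib.Helper89.N2R.Abs

set_option autoImplicit false

namespace Cfsg.Agent.Lib.N2R
open Function Matrix SemidirectProduct

theorem conj_inl {D : Type*} [Group D] (n : ℕ) (T : Subgroup (Equiv.Perm (Fin n)))
    (w : (Fin n → D) ⋊[(mulAutArrow : T →* MulAut (Fin n → D))] T) (f : Fin n → D) :
    w * inl f * w⁻¹ = inl (fun j => w.left j * f (w.right⁻¹ • j) * (w.left j)⁻¹) := by
  apply SemidirectProduct.ext
  · funext j
    simp only [mul_left, mul_right, inv_left, left_inl, right_inl, mul_one, Pi.mul_apply]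
    have h1 : (mulAutArrow w.right) ((mulAutArrow w.right⁻¹) w.left⁻¹) = w.left⁻¹ := by
      rw [← MulAut.mul_apply, ← map_mul, mul_inv_cancel, map_one, MulAut.one_apply]
    rw [h1]
    rfl
  · simp

/-- W2 -/
theorem wreath_lower {D : Type*} [Group D] (hD : Good D) (n : ℕ)
    (T : Subgroup (Equiv.Perm (Fin n))) :
    ∃ E : Subgroup ((Fin n → D) ⋊[(mulAutArrow : T →* MulAut (Fin n → D))] T),
      E.Normal ∧ Cfsg.IsElementaryAbelian 2 E ∧ 2 ^ n ≤ Nat.card E := by
  obtain ⟨Z₀, hc, hn, -, -⟩ := hD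
  have hfinZ : Finite Z₀ := Nat.finite_of_card_ne_zero (by rw [hc]; norm_num)
  have hsq : ∀ z ∈ Z₀, z ^ 2 = 1 := by
    intro z hz
    have : (⟨z, hz⟩ : Z₀) ^ 2 = 1 := by
      rw [← hc]
      exact pow_card_eq_one'
    exact congrArg Subtype.val this
  have hcomm : ∀ a ∈ Z₀, ∀ b ∈ Z₀, a * b = b * a := by
    have : Fact (Nat.Prime 2) := ⟨Nat.prime_two⟩
    have hcyc : IsCyclic Z₀ := isCyclic_of_prime_card hc
    intro a ha b hb
    exact congrArg Subtype.val ((IsCyclic.commGroup (α := Z₀)).mul_comm ⟨a, ha⟩ ⟨b, hb⟩)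
  refine ⟨(Subgroup.pi Set.univ (fun _ : Fin n => Z₀)).map inl, ?_, ?_, ?_⟩
  · constructor
    rintro _ ⟨f, hf, rfl⟩ w
    rw [conj_inl]
    refine ⟨_, ?_, rfl⟩
    intro j _
    exact hn.conj_mem _ (hf _ (Set.mem_univ _)) _
  · apply elAb_map
    rw [elAb_iff]
    constructor
    · intro a ha b hb
      funext j
      exact hcomm _ (ha j (Set.mem_univ _)) _ (hb j (Set.mem_univ _))
    · intro a ha
      funext j
      exact hsq _ (ha j (Set.mem_univ _))
  · rw [Subgroup.card_map_of_injective inl_injective]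
    have hbij : Bijective (fun f : Fin n → Z₀ =>
        (⟨fun j => (f j : D), fun j _ => (f j).2⟩ : Subgroup.pi Set.univ (fun _ : Fin n => Z₀))) := by
      constructor
      · intro f g hfg
        funext j
        exact Subtype.ext (congrFun (congrArg Subtype.val hfg) j)
      · rintro ⟨f, hf⟩
        exact ⟨fun j => ⟨f j, hf j (Set.mem_univ _)⟩, rfl⟩
    rw [← Nat.card_congr (Equiv.ofBijective _ hbij), Nat.card_fun, hc, Nat.card_fin]

/-- W1 -/
theorem wreath_upper {D : Type*} [Group D] (hD : Good D) (n : ℕ)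
    (T : Subgroup (Equiv.Perm (Fin n)))
    (E : Subgroup ((Fin n → D) ⋊[(mulAutArrow : T →* MulAut (Fin n → D))] T)) (hE : E.Normal)
    (hel : Cfsg.IsElementaryAbelian 2 E) : Nat.card E ≤ 2 ^ n := by
  classical
  obtain ⟨Z₀, hc, hn, hA, x₀, hx₀⟩ := hD
  have hfinZ : Finite Z₀ := Nat.finite_of_card_ne_zero (by rw [hc]; norm_num)
  have hel' := (elAb_iff 2 E).mp hel
  -- step 1
  have h1 : ∀ e ∈ E, e.right = 1 := by
    intro e he
    by_contra hne
    obtain ⟨i, hi⟩ : ∃ i, (e.right⁻¹ : T) • i ≠ i := by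
      by_contra hcon
      push Not at hcon
      apply hne
      have : (e.right⁻¹ : T) = 1 := by
        apply Subtype.ext
        ext j
        exact congrArg Fin.val (hcon j)
      exact inv_eq_one.mp this
    have hb : e * inl (Pi.mulSingle i x₀) * e⁻¹ * (inl (Pi.mulSingle i x₀))⁻¹ ∈ E := by
      have h2 : inl (Pi.mulSingle i x₀) * e⁻¹ * (inl (Pi.mulSingle i x₀))⁻¹ ∈ E :=
        hE.conj_mem _ (E.inv_mem he) _
      have h3 := E.mul_mem he h2
      simpa [mul_assoc] using h3
    rw [conj_inl, ← map_inv, ← map_mul] at hb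
    have h4 := hel'.2 _ hb
    rw [← map_pow, ← map_one inl] at h4
    have h5 := congrFun (inl_injective h4) i
    simp only [Pi.pow_apply, Pi.mul_apply, Pi.inv_apply, Pi.one_apply, Pi.mulSingle_eq_same,
      Pi.mulSingle_eq_of_ne hi, mul_one, mul_inv_cancel, one_mul] at h5
    apply hx₀
    rw [inv_pow, inv_eq_one] at h5
    exact h5
  -- step 2
  have h2 : ∀ e ∈ E, ∀ i, e.left i ∈ Z₀ := by
    intro e he i
    have hAn : ((E.comap inl).map (Pi.evalMonoidHom (fun _ : Fin n => D) i)).Normal := by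
      apply Subgroup.Normal.map (hE.comap _)
      intro d
      exact ⟨fun _ => d, rfl⟩
    have hAe : Cfsg.IsElementaryAbelian 2
        ((E.comap inl).map (Pi.evalMonoidHom (fun _ : Fin n => D) i)) :=
      elAb_map 2 _ (elAb_comap 2 _ inl_injective hel)
    apply hA _ hAn hAe
    refine ⟨e.left, ?_, rfl⟩
    change inl e.left ∈ E
    have : inl e.left = e := by
      apply SemidirectProduct.ext
      · simp
      · simp [h1 e he]
    rw [this]
    exact he
  have hinj : Injective (fun e : E => fun i => (⟨e.1.left i, h2 e.1 e.2 i⟩ : Z₀)) := by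
    intro a b hab
    apply Subtype.ext
    apply SemidirectProduct.ext
    · funext i
      exact congrArg Subtype.val (congrFun hab i)
    · rw [h1 a.1 a.2, h1 b.1 b.2]
  have h3 := Nat.card_le_card_of_injective _ hinj
  rwa [Nat.card_fun, hc, Nat.card_fin] at h3

end Cfsg.Agent.Lib.N2R
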